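import Cfsg.Agent.H535.RIM.ON

/-!
# S4816, the rows (O'N, p), p = 5, 11, 19, 31 (helper535)

The proof of `H535.RIM.ON.main` (p = 7) with one more column `B`, the class 7B (`|C| = 49`, `7 ∣ a - B`,
`343 ∣ a + 174 A + 168 B`), used only through the existence of `B`, `B ^ 2 ≤ 49`.
-/

set_option autoImplicit false
set_option maxRecDepth 100000
set_option linter.unusedSectionVars false

open Cfsg Subgroup
open scoped ComplexConjugate

namespace Cfsg.Agent.H535.RIM.ON

open Cfsg.Agent.Characters.Core Cfsg.Agent.H622.Over Cfsg.Agent.H382.RIM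
open Cfsg.Agent.H653.Sieve Cfsg.Agent.H665.RIM
open Cfsg.Agent.KFacts.ON.Cent (finite_ON)
open Cfsg.Agent.H266.ON3 (H7 phi phi_injective)
open Cfsg.Agent.H210.ON3 (ty rel C C_ne cj order_C conj_C card_C B order_B conj_B card_B card_ty)
open Cfsg.Agent.H51.Mult (PCE)

universe u

/-! ### the check -/

/-- coefficients of a quadratic form -/
structure Cf where
  aa : ℤ
  aR : ℤ
  aS : ℤ
  aE : ℤ
  aA : ℤ
  RR : ℤ
  RS : ℤ
  RE : ℤ
  RA : ℤ
  SS : ℤ
  SE : ℤ
  SA : ℤ
  EE : ℤ
  EA : ℤ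
  AA : ℤ

def qf (k : Cf) (a R S E A : ℤ) : ℤ :=
  k.aa * (a * a) + k.aR * (a * R) + k.aS * (a * S) + k.aE * (a * E) + k.aA * (a * A) + k.RR * (R * R)
    + k.RS * (R * S) + k.RE * (R * E) + k.RA * (R * A) + k.SS * (S * S) + k.SE * (S * E) + k.SA * (S * A)
    + k.EE * (E * E) + k.EA * (E * A) + k.AA * (A * A)

def tot (k : Cf) : ℤ := k.aa * 460815505920 + k.RR * 62 + k.SS * 57 + k.EE * 11 + k.AA * 1372

def fac7 : List (ℕ × ℕ) := [(2, 9), (3, 4), (5, 1), (7, 3), (11, 1), (19, 1), (31, 1)]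

def in2 (k : Cf) (d : ℕ) (R S E A : ℤ) : Bool :=
  (List.range 15).all fun j => !(decide (((d : ℤ) - ((j : ℤ) - 7)) % 7 = 0)) ||
    !(decide (((d : ℤ) + 174 * A + 168 * ((j : ℤ) - 7)) % 343 = 0)) || decide (0 ≤ qf k d R S E A)

def in1 (k : Cf) (d : ℕ) (R S E : ℤ) : Bool :=
  (List.range 75).all fun i => !(decide (((d : ℤ) - ((i : ℤ) - 37)) % 49 = 0)) || in2 k d R S E ((i : ℤ) - 37)

def chk2 (p : ℕ) (k : Cf) (d : ℕ) : Bool :=
  bif Nat.ble 460815505921 (d * d) then true else bif Nat.beq (d % p) 0 then true else bif Nat.beq (d % 9) 0 then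
    wl31.all fun x => !(Nat.beq (d % 31) x.1) || wl19.all fun y => !(Nat.beq (d % 19) y.1) ||
      wl11.all fun z => !(Nat.beq (d % 11) z.1) || in1 k d x.2 y.2 z.2
  else true

theorem in2_spec {k : Cf} {d : ℕ} {R S E A B : ℤ} (h : in2 k d R S E A = true) (hB : B * B ≤ 49)
    (h7 : (7 : ℤ) ∣ d - B) (h343 : (343 : ℤ) ∣ d + 174 * A + 168 * B) : 0 ≤ qf k d R S E A := by
  have h1 : -7 ≤ B := by nlinarith
  have h2 : B ≤ 7 := by nlinarith
  obtain ⟨j, hj⟩ : ∃ j : ℕ, (j : ℤ) = B + 7 := ⟨(B + 7).toNat, Int.toNat_of_nonneg (by omega)⟩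
  have h3 : j ∈ List.range 15 := List.mem_range.2 (by omega)
  have h4 := List.all_eq_true.1 h j h3
  have h5 : ((j : ℤ) - 7) = B := by omega
  rw [h5, Bool.or_eq_true, Bool.or_eq_true, Bool.not_eq_true', decide_eq_false_iff_not, Bool.not_eq_true',
    decide_eq_false_iff_not, decide_eq_true_iff] at h4
  rcases h4 with (h4 | h4) | h4
  · exact absurd (Int.emod_eq_zero_of_dvd h7) h4
  · exact absurd (Int.emod_eq_zero_of_dvd h343) h4
  · exact h4

theorem in1_spec {k : Cf} {d : ℕ} {R S E A B : ℤ} (h : in1 k d R S E = true) (hA : A * A ≤ 1372)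
    (h49 : (49 : ℤ) ∣ d - A) (hB : B * B ≤ 49)
    (h7 : (7 : ℤ) ∣ d - B) (h343 : (343 : ℤ) ∣ d + 174 * A + 168 * B) : 0 ≤ qf k d R S E A := by
  have h1 : -37 ≤ A := by nlinarith
  have h2 : A ≤ 37 := by nlinarith
  obtain ⟨i, hi⟩ : ∃ i : ℕ, (i : ℤ) = A + 37 := ⟨(A + 37).toNat, Int.toNat_of_nonneg (by omega)⟩
  have h3 : i ∈ List.range 75 := List.mem_range.2 (by omega)
  have h4 := List.all_eq_true.1 h i h3
  have h5 : ((i : ℤ) - 37) = A := by omega
  rw [h5, Bool.or_eq_true, Bool.not_eq_true', decide_eq_false_iff_not] at h4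
  rcases h4 with h4 | h4
  · exact absurd (Int.emod_eq_zero_of_dvd h49) h4
  · exact in2_spec h4 hB h7 h343

theorem chk2_spec {p : ℕ} {k : Cf} {d : ℕ} {R S E A B : ℤ} (h : chk2 p k d = true) (hd : d * d < 460815505921)
    (hp : ¬ p ∣ d) (h9 : 9 ∣ d) (hR : (d % 31, R) ∈ wl31)
    (hS : (d % 19, S) ∈ wl19) (hE : (d % 11, E) ∈ wl11) (hA : A * A ≤ 1372) (h49 : (49 : ℤ) ∣ d - A)
    (hB : B * B ≤ 49) (h7 : (7 : ℤ) ∣ d - B) (h343 : (343 : ℤ) ∣ d + 174 * A + 168 * B) :
    0 ≤ qf k d R S E A := by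
  have e9 : Nat.beq (d % 9) 0 = true := by rw [Nat.mod_eq_zero_of_dvd h9]; rfl
  have e1 : Nat.ble 460815505921 (d * d) = false := by
    rw [Bool.eq_false_iff]
    intro h'
    exact absurd (Nat.le_of_ble_eq_true h') (by omega)
  have e2 : Nat.beq (d % p) 0 = false := by
    rw [Bool.eq_false_iff]
    intro h'
    exact hp (Nat.dvd_of_mod_eq_zero (Nat.eq_of_beq_eq_true h'))
  rw [chk2, e1, cond_false, e2, cond_false, e9, cond_true] at h
  have h1 := List.all_eq_true.1 h _ hR
  rw [Nat.beq_refl, Bool.not_true, Bool.false_or] at h1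
  have h2 := List.all_eq_true.1 h1 _ hS
  rw [Nat.beq_refl, Bool.not_true, Bool.false_or] at h2
  have h3 := List.all_eq_true.1 h2 _ hE
  rw [Nat.beq_refl, Bool.not_true, Bool.false_or] at h3
  exact in1_spec h3 hA h49 hB h7 h343

theorem facProd_fac7 : facProd fac7 = 460815505920 := by decide +kernel

def k5 : Cf := ⟨0, -131, -34, 73, 6, -963303, -8831183, 10429499, 1625754, -1047803, 5191520, -33789, -5429526, -334275, 64576⟩
def k11 : Cf := ⟨0, 2363, -1289, 422, -29, -179487887, -100349733, -69261000, -108287, -195232438, 227146707, 39946957, 873319965, 18791669, -41518⟩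
def k19 : Cf := ⟨1, 17461, -22783, -10563, -4080, -9025180523, 1103773806, 3676429784, -1855853410, 1075830452, 3310686740, 921234539, -1690222257, 1000128415, 29001923⟩
def k31 : Cf := ⟨2, -4865, -294633, -800116, -101051, -66198208413, -75029552640, 111601698676, 9936276480, -3884751360, -33511946007, -6233172480, 84872749615, 24893341789, 1724845871⟩

theorem k5_ok : allDiv 460815505921 (chk2 5 k5) fac7 1 = true := by decide +kernel
theorem k11_ok : allDiv 460815505921 (chk2 11 k11) fac7 1 = true := by decide +kernel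
theorem k19_ok : allDiv 460815505921 (chk2 19 k19) fac7 1 = true := by decide +kernel
theorem k31_ok : allDiv 460815505921 (chk2 31 k31) fac7 1 = true := by decide +kernel

/-! ### the Sylow subgroup -/

section

variable {G : Type u} [Group G] [Finite G] {Z : Subgroup G} [Z.Normal]

/-- the sum over the Sylow subgroup -/
theorem dvd_343 (e : (G ⧸ Z) ≃* Spor.ON) (hZ : Z ≤ center G) (h3 : Nat.card Z = 3) {u v : G} (hu : orderOf u = 7)
    (hue : e (u : G ⧸ Z) = C) (hv : orderOf v = 7) (hve : e (v : G ⧸ Z) = B) (χ : IrrCharacter G) {A A' : ℤ}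
    (hA : (χ : G → ℂ) u = A) (hA' : (χ : G → ℂ) v = A') :
    (343 : ℤ) ∣ (charDegree (χ : G → ℂ) : ℤ) + 174 * A + 168 * A' := by
  classical
  have h7F : Fact (Nat.Prime 7) := ⟨by norm_num⟩
  let R : Subgroup Spor.ON := (phi rel).range
  have hR : Nat.card R = 343 := by
    show Nat.card (phi rel).range = 343
    rw [← Nat.card_congr (MonoidHom.ofInjective (phi_injective rel C_ne)).toEquiv, H7.card]
  let D' : Subgroup G := (R.comap e.toMonoidHom).comap (QuotientGroup.mk' Z)
  have hD' : Nat.card D' = 343 * 3 := by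
    show Nat.card ((R.comap e.toMonoidHom).comap (QuotientGroup.mk' Z)) = _
    rw [H849.RIM.card_comap, h3]
    congr 1
    rw [← hR]
    exact Nat.card_congr
      { toFun := fun x => ⟨e x.1, x.2⟩
        invFun := fun x => ⟨e.symm x.1, by rw [mem_comap]; show e (e.symm x.1) ∈ R; rw [e.apply_symm_apply]; exact x.2⟩
        left_inv := fun x => Subtype.ext (e.symm_apply_apply _)
        right_inv := fun x => Subtype.ext (e.apply_symm_apply _) }
  obtain ⟨P⟩ : Nonempty (Sylow 7 D') := inferInstance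
  have hP : Nat.card (P : Subgroup D') = 343 := by
    have h1 := P.card_eq_multiplicity
    rw [hD', show (343 * 3 : ℕ) = 7 ^ 3 * 3 by norm_num, Nat.factorization_mul (by norm_num) (by norm_num),
      Nat.Prime.factorization_pow (by norm_num)] at h1
    have h2 : (3 : ℕ).factorization 7 = 0 := Nat.factorization_eq_zero_of_not_dvd (by norm_num)
    rw [Finsupp.add_apply, h2, Finsupp.single_eq_same, add_zero] at h1
    rw [h1]
    norm_num
  let H : Subgroup G := (P : Subgroup D').map D'.subtype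
  have hH : Nat.card H = 343 := by
    show Nat.card ((P : Subgroup D').map D'.subtype) = 343
    rw [← Nat.card_congr ((P : Subgroup D').equivMapOfInjective _ D'.subtype_injective).toEquiv, hP]
  have hfH := Fintype.ofFinite H
  obtain ⟨m, hm⟩ := SmallSimple.TheoremBCor.exists_sum_eq (isIrr_isCharacter χ.2) H
  -- the map to `H7`
  have hord : ∀ x : H, (orderOf (x : G)).Coprime (Nat.card Z) := by
    intro x
    have h1 : orderOf (x : G) ∣ 343 := by
      rw [orderOf_coe, ← hH]
      exact orderOf_dvd_natCard x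
    rw [h3]
    exact Nat.Coprime.coprime_dvd_left h1 (by norm_num)
  have hex : ∀ x : H, ∃ g : H7, phi rel g = e ((x : G) : G ⧸ Z) := by
    intro x
    obtain ⟨y, -, hy⟩ := x.2
    have h1 : e ((x : G) : G ⧸ Z) ∈ R := by
      rw [← hy]
      exact y.2
    exact h1
  choose f hf using hex
  have hfinj : Function.Injective f := by
    intro x y hxy
    have h1 : e ((x : G) : G ⧸ Z) = e ((y : G) : G ⧸ Z) := by rw [← hf, ← hf, hxy]
    have h2 := e.injective h1
    have h4 : ((x * y⁻¹ : H) : G) ∈ Z := by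
      rw [← QuotientGroup.eq_one_iff, Subgroup.coe_mul, Subgroup.coe_inv, QuotientGroup.mk_mul, QuotientGroup.mk_inv,
        h2, mul_inv_cancel]
    have h5 : orderOf (⟨((x * y⁻¹ : H) : G), h4⟩ : Z) ∣ Nat.card Z := orderOf_dvd_natCard _
    rw [← orderOf_coe, Subgroup.coe_mk] at h5
    have h6 : orderOf ((x * y⁻¹ : H) : G) = 1 :=
      Nat.eq_one_of_dvd_coprimes (hord (x * y⁻¹)) dvd_rfl h5
    have h7 : x * y⁻¹ = 1 := Subtype.ext (orderOf_eq_one_iff.1 h6)
    exact mul_inv_eq_one.1 h7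
  have hfbij : Function.Bijective f := by
    rw [Fintype.bijective_iff_injective_and_card]
    refine ⟨hfinj, ?_⟩
    rw [← Nat.card_eq_fintype_card, ← Nat.card_eq_fintype_card, hH, H7.card]
  have hval : ∀ x : H, (χ : G → ℂ) x = (if ty (f x) = 0 then ((charDegree (χ : G → ℂ) : ℤ) : ℂ) else 0) +
      (if ty (f x) = 1 then (A : ℂ) else 0) + (if ty (f x) = 2 then (A' : ℂ) else 0) := by
    intro x
    obtain ⟨c0, c1, c2⟩ := cj.cls (f x)
    have h3' : ty (f x) = 0 ∨ ty (f x) = 1 ∨ ty (f x) = 2 := by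
      have : ∀ i : Fin 3, i = 0 ∨ i = 1 ∨ i = 2 := by decide
      exact this _
    have key : ∀ {w : G} {W : Spor.ON}, orderOf w = 7 → e (w : G ⧸ Z) = W → IsConj (phi rel (f x)) W →
        (χ : G → ℂ) x = (χ : G → ℂ) w := by
      intro w W hw hwe hc
      refine H894.J4Two.apply_eq_of_isConj χ.2 (isConj_of_quot hZ (hord x) (by rw [hw, h3]; norm_num) ?_)
      rw [hf, ← hwe] at hc
      have h7 := e.symm.toMonoidHom.map_isConj hc
      simpa using h7
    rcases h3' with h | h | h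
    · have h1 : phi rel (f x) = 1 := c0 h
      have h2 : e ((x : G) : G ⧸ Z) = 1 := by rw [← hf, h1]
      have h4 : (x : G) ∈ Z := (QuotientGroup.eq_one_iff _).1 (e.injective (h2.trans (map_one e).symm))
      have h5 : orderOf (⟨(x : G), h4⟩ : Z) ∣ Nat.card Z := orderOf_dvd_natCard _
      rw [← orderOf_coe, Subgroup.coe_mk] at h5
      have h6 : (x : G) = 1 := orderOf_eq_one_iff.1 (Nat.eq_one_of_dvd_coprimes (hord x) dvd_rfl h5)
      rw [h6, h, Blocks.Knorr.charDegree_eq χ.2]
      simp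
    · rw [key hu hue (c1 h), hA, h]
      simp
    · rw [key hv hve (c2 h), hA', h]
      simp
  have hsum : ∑ x : H, (χ : G → ℂ) x = ∑ g : H7, ((if ty g = 0 then ((charDegree (χ : G → ℂ) : ℤ) : ℂ) else 0) +
      (if ty g = 1 then (A : ℂ) else 0) + (if ty g = 2 then (A' : ℂ) else 0)) := by
    rw [Finset.sum_congr rfl fun x _ => hval x]
    exact Function.Bijective.sum_comp hfbij (fun g : H7 => ((if ty g = 0 then ((charDegree (χ : G → ℂ) : ℤ) : ℂ) else 0) +
      (if ty g = 1 then (A : ℂ) else 0) + (if ty g = 2 then (A' : ℂ) else 0)))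
  rw [hsum, Finset.sum_add_distrib, Finset.sum_add_distrib, ← Finset.sum_filter, ← Finset.sum_filter,
    ← Finset.sum_filter, Finset.sum_const, Finset.sum_const, Finset.sum_const, card_ty.1, card_ty.2.1, card_ty.2.2,
    hH] at hm
  refine ⟨m, ?_⟩
  have h6 : (((charDegree (χ : G → ℂ) : ℤ) + 174 * A + 168 * A' : ℤ) : ℂ) = ((343 * m : ℤ) : ℂ) := by
    push_cast
    simp only [nsmul_eq_mul] at hm
    push_cast at hm
    linear_combination hm
  exact_mod_cast h6

theorem main2 (hZ : Z ≤ center G) (e : (G ⧸ Z) ≃* Spor.ON) (h3 : Nat.card Z = 3) (hperf : commutator G = ⊤)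
    {c : Z →* ℂˣ} (hc : Function.Injective c) (p : ℕ) (k : Cf) (hk : allDiv 460815505921 (chk2 p k) fac7 1 = true)
    (htot : tot k < 0) : ∃ χ : IrrCharacter G, Lies Z c (χ : G → ℂ) ∧ p ∣ charDegree (χ : G → ℂ) := by
  classical
  by_contra hcon
  push Not at hcon
  have := finite_irr (G := G)
  have := Fintype.ofFinite (IrrCharacter G)
  have hfG := Fintype.ofFinite G
  have h31F : Fact (Nat.Prime 31) := ⟨by norm_num⟩
  have h19F : Fact (Nat.Prime 19) := ⟨by norm_num⟩
  have h11F : Fact (Nat.Prime 11) := ⟨by norm_num⟩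
  have h7F : Fact (Nat.Prime 7) := ⟨by norm_num⟩
  obtain ⟨PR, R, pR, cR, lR, qR, dR, vR⟩ := col e hZ h3 (p := 31) (f := 15) (t := 2) (by norm_num) (by norm_num)
    (by norm_num) H210.On7.h31 (by norm_num) wl31_ok c
  obtain ⟨PS, S, pS, cS, lS, qS, dS, vS⟩ := col e hZ h3 (p := 19) (f := 6) (t := 3) (by norm_num) (by norm_num)
    (by norm_num) H210.On7.h19 (by norm_num) wl19_ok c
  obtain ⟨PE, E, pE, cE, lE, qE, dE, vE⟩ := col e hZ h3 (p := 11) (f := 10) (t := 1) (by norm_num) (by norm_num)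
    (by norm_num) H210.On7.h11 (by norm_num) wl11_ok c
  -- the class 7A
  have hCe : e (e.symm C) = C := e.apply_symm_apply C
  obtain ⟨u, A, hu, ho, cA, lA, vA, qA, dA⟩ := exists_val (p := 7) hZ (by rw [h3]; norm_num) (y := e.symm C)
    (by rw [MulEquiv.orderOf_eq, order_C]) (by
      intro w hw hw1
      obtain ⟨k, rfl⟩ := mem_zpowers_iff.1 hw
      have h1 : IsConj (C ^ k) C := conj_C (zpow_mem (mem_zpowers _) k) (by
        intro h
        apply hw1
        rw [← map_zpow, h, map_one])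
      have h2 := e.symm.toMonoidHom.map_isConj h1
      simpa using h2) c
  rw [← H620.RIM.card_centralizer_congr e (e.symm C), hCe, card_C] at qA
  have hue : e (u : G ⧸ Z) = C := by rw [hu, hCe]
  have pA : Nat.card (zpowers u) = 7 := by rw [Nat.card_zpowers, ho]
  -- the class 7B
  have hBe : e (e.symm B) = B := e.apply_symm_apply B
  obtain ⟨v, A', hv, ho', cA', -, vA', qA', -⟩ := exists_val (p := 7) hZ (by rw [h3]; norm_num) (y := e.symm B)
    (by rw [MulEquiv.orderOf_eq, order_B]) (by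
      intro w hw hw1
      obtain ⟨k, rfl⟩ := mem_zpowers_iff.1 hw
      have h1 : IsConj (B ^ k) B := conj_B (zpow_mem (mem_zpowers _) k) (by
        intro h
        apply hw1
        rw [← map_zpow, h, map_one])
      have h2 := e.symm.toMonoidHom.map_isConj h1
      simpa using h2) c
  rw [← H620.RIM.card_centralizer_congr e (e.symm B), hBe, card_B] at qA'
  have hve : e (v : G ⧸ Z) = B := by rw [hv, hBe]
  have pA' : Nat.card (zpowers v) = 7 := by rw [Nat.card_zpowers, ho']
  -- the sums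
  have qD := sum_deg_sq hZ c (N := 460815505920) (by rw [card_G e h3, h3])
  have xRS := cross hZ c (by norm_num) (by norm_num) (by norm_num) pR pS cR cS (by norm_num) (by norm_num) lR lS
  have xRE := cross hZ c (by norm_num) (by norm_num) (by norm_num) pR pE cR cE (by norm_num) (by norm_num) lR lE
  have xRA := cross hZ c (by norm_num) (by norm_num) (by norm_num) pR pA cR cA (by norm_num) (by norm_num) lR lA
  have xSE := cross hZ c (by norm_num) (by norm_num) (by norm_num) pS pE cS cE (by norm_num) (by norm_num) lS lE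
  have xSA := cross hZ c (by norm_num) (by norm_num) (by norm_num) pS pA cS cA (by norm_num) (by norm_num) lS lA
  have xEA := cross hZ c (by norm_num) (by norm_num) (by norm_num) pE pA cE cA (by norm_num) (by norm_num) lE lA
  have hsum : ∑ χ ∈ ov Z c, qf k (deg χ) (R χ) (S χ) (E χ) (A χ) = tot k := by
    simp only [qf, Finset.sum_add_distrib, ← Finset.mul_sum]
    rw [qD, dR, dS, dE, dA, qR, xRS, xRE, xRA, qS, xSE, xSA, qE, xEA, qA, tot]
    push_cast
    ring
  have hnn : 0 ≤ ∑ χ ∈ ov Z c, qf k (deg χ) (R χ) (S χ) (E χ) (A χ) := by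
    refine Finset.sum_nonneg fun χ hχ => ?_
    have hl := mem_ov.1 hχ
    have hdN : deg χ ∣ facProd fac7 := by
      have h1 := H639.charDegree_dvd_index hZ χ
      have h2 : Z.index = 460815505920 := by
        rw [Subgroup.index_eq_card, Nat.card_congr e.toEquiv, H474.ONC.card_ON]
      rw [h2, ← facProd_fac7] at h1
      exact h1
    have hsq : deg χ * deg χ < 460815505921 := by
      have h1 : (deg χ : ℤ) * (deg χ : ℤ) ≤ ∑ χ ∈ ov Z c, (deg χ : ℤ) * (deg χ : ℤ) :=
        Finset.single_le_sum (f := fun χ : IrrCharacter G => (deg χ : ℤ) * (deg χ : ℤ)) (fun _ _ => mul_self_nonneg _) hχ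
      rw [qD] at h1
      have h2 : deg χ * deg χ ≤ 460815505920 := by exact_mod_cast h1
      omega
    have hA2 : A χ * A χ ≤ 1372 := by
      have h1 : A χ * A χ ≤ ∑ χ ∈ ov Z c, A χ * A χ :=
        Finset.single_le_sum (f := fun χ : IrrCharacter G => A χ * A χ) (fun _ _ => mul_self_nonneg _) hχ
      rw [qA] at h1
      exact_mod_cast h1
    have hB2 : A' χ * A' χ ≤ 49 := by
      have h1 : A' χ * A' χ ≤ ∑ χ ∈ ov Z c, A' χ * A' χ :=
        Finset.single_le_sum (f := fun χ : IrrCharacter G => A' χ * A' χ) (fun _ _ => mul_self_nonneg _) hχ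
      rw [qA'] at h1
      exact_mod_cast h1
    have h7B : (7 : ℤ) ∣ (deg χ : ℤ) - A' χ := by
      have h1 := cA'.dvd χ
      rw [pA'] at h1
      obtain ⟨j, hj⟩ := h1
      refine ⟨j - A' χ, ?_⟩
      push_cast at hj
      linear_combination hj
    have hkk := allDiv_spec (L := fac7) (by decide) hk (deg χ) hdN (by rwa [one_mul])
    rw [one_mul] at hkk
    exact chk2_spec hkk hsq (hcon χ hl) (nine_dvd hZ e h3 hperf hc hl) (vR χ) (vS χ) (vE χ) hA2
      (dvd_sub e hZ h3 ho hue χ (vA χ)) hB2 h7B (dvd_343 e hZ h3 ho hue ho' hve χ (vA χ) (vA' χ))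
  rw [hsum] at hnn
  omega

end

theorem nball {p : ℕ} {S : Type u} [Group S] (h : Spor.IsoON S)
    (H : ∀ {G : Type u} [Group G] [Finite G] {Z : Subgroup G} [Z.Normal], Z ≤ center G → ((G ⧸ Z) ≃* Spor.ON) →
      Nat.card Z = 3 → commutator G = ⊤ → ∀ c : Z →* ℂˣ, Function.Injective c →
      ∃ χ : IrrCharacter G, Lies Z c (χ : G → ℂ) ∧ p ∣ charDegree (χ : G → ℂ)) : NBall p S := by
  obtain ⟨f⟩ := h
  intro m hm h7
  refine H620.RIM.nb_of_quot fun G _ _ Z _ hZ e hcard hperf c hc => ?_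
  have hp := pce hZ (e.trans f) hperf
  have hd : Nat.card Z ∣ 3 := by
    have h1 := (H68.Bounds.ker_of_hasCyclic S2052.result hp).2
    rwa [ker_eq] at h1
  rcases (Nat.dvd_prime Nat.prime_three).1 hd with h1 | h1
  · omega
  · exact H hZ (e.trans f) h1 hperf c hc

/-- **S4816, (O'N, 5)** -/
theorem nball_five {S : Type u} [Group S] (h : Spor.IsoON S) : NBall 5 S :=
  nball h fun hZ e h3 hperf _ hc => main2 hZ e h3 hperf hc 5 k5 k5_ok (by decide)

/-- **S4816, (O'N, 11)** -/
theorem nball_eleven {S : Type u} [Group S] (h : Spor.IsoON S) : NBall 11 S :=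
  nball h fun hZ e h3 hperf _ hc => main2 hZ e h3 hperf hc 11 k11 k11_ok (by decide)

/-- **S4816, (O'N, 19)** -/
theorem nball_nineteen {S : Type u} [Group S] (h : Spor.IsoON S) : NBall 19 S :=
  nball h fun hZ e h3 hperf _ hc => main2 hZ e h3 hperf hc 19 k19 k19_ok (by decide)

/-- **S4816, (O'N, 31)** -/
theorem nball_thirtyone {S : Type u} [Group S] (h : Spor.IsoON S) : NBall 31 S :=
  nball h fun hZ e h3 hperf _ hc => main2 hZ e h3 hperf hc 31 k31 k31_ok (by decide)

end Cfsg.Agent.H535.RIM.ON
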